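import Mathlib
import Cfsg.Agent.MacW.SR
import Cfsg.Agent.Fus.AutSL2
import Cfsg.Agent.Grp.MaxClass
import Cfsg.Agent.Transfer.ThompsonTransfer

set_option autoImplicit false
set_option linter.style.haveILetI false
set_option linter.unnecessarySimpa false
set_option linter.unusedSectionVars false

/-! A non-real element of order 3 whose centralizer has Sylow 3-subgroups of order at most 9. -/

namespace Cfsg.Agent.Fxy
open Cfsg Subgroup Cfsg.Agent.PLocal.Amb Cfsg.Agent.MacW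

variable {G : Type*} [Group G] [Finite G]

theorem mul_card_le {p : ℕ} [hp : Fact p.Prime] {D E : Subgroup G} (hE : IsPGroup p E) (h : D < E) :
    p * Nat.card D ≤ Nat.card E := by
  obtain ⟨a, ha⟩ := hE.exists_card_eq
  obtain ⟨b, hb⟩ := (hE.to_le h.le).exists_card_eq
  have := lt_of_le_of_ne (card_le_of_le h.le) fun e => h.ne (eq_of_le_of_card_ge h.le e.ge)
  rw [ha, hb] at this ⊢
  rw [← pow_succ']
  exact Nat.pow_le_pow_right hp.out.pos ((Nat.pow_lt_pow_iff_right hp.out.one_lt).1 this)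

theorem card_le_of_lt3 {E : Subgroup G} (hE : IsPGroup 3 E) (k : ℕ) (h : Nat.card E < 3 ^ (k + 1)) :
    Nat.card E ≤ 3 ^ k := by
  haveI : Fact (Nat.Prime 3) := ⟨Nat.prime_three⟩
  obtain ⟨a, ha⟩ := hE.exists_card_eq
  rw [ha] at h ⊢
  exact Nat.pow_le_pow_right (by norm_num) (Nat.lt_succ_iff.1 ((Nat.pow_lt_pow_iff_right (by norm_num)).1 h))

set_option synthInstance.maxSize 2000 in
theorem exists_lin : ∀ T : ZMod 3 × ZMod 3 → Bool, T 0 = false → (∀ v, T v → T (-v) = false) →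
    (∀ s u v, T s → T u → T v → T (u + v) → ∃ u' v', T u' ∧ T v' ∧ s = u' + v') →
    ∃ a b : ZMod 3, ∀ v, T v → a * v.1 + b * v.2 = 1 := by
  decide +kernel

/-- The hypothesis on `y`. -/
structure NR (y : G) : Prop where
  ne : y ≠ 1
  cube : y ^ 3 = 1
  nine : ∀ T : Subgroup G, IsPGroup 3 T → T ≤ centralizer {y} → Nat.card T ≤ 9
  nr : ∀ g : G, g * y * g⁻¹ ≠ y⁻¹

namespace NR
variable {y : G} (h : NR y)
include h

theorem conj (g : G) : NR (g * y * g⁻¹) :=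
  ⟨by simpa using h.ne, by rw [conj_pow, h.cube]; simp, fun T hT hle => by
    rw [centralizer_singleton_conj, le_cj_iff] at hle
    exact card_cj g⁻¹ T ▸ h.nine _ (isPGroup_cj _ hT) hle,
   fun k e => h.nr (g⁻¹ * k * g) (by
    calc _ = g⁻¹ * (k * (g * y * g⁻¹) * k⁻¹) * g := by group
      _ = _ := by rw [e]; group)⟩

theorem orb {E : Subgroup G} (hE : IsPGroup 3 E) :
    Nat.card E ≤ ((fun e => e * y * e⁻¹) '' (E : Set G)).ncard * 9 :=
  (card_le_ncard_mul E (centralizer {y}) (Set.toFinite _) (fun e => e * y * e⁻¹)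
    (fun x hx => Set.mem_image_of_mem _ hx) fun a _ b _ e => mem_centralizer_singleton_iff.2 (by
      calc _ = a⁻¹ * (b * y * b⁻¹) * b := by group
        _ = _ := by rw [← e]; group)).trans
    (Nat.mul_le_mul_left _ (h.nine _ (hE.to_le inf_le_left) inf_le_right))

theorem half {D : Subgroup G} (hy : y ∈ D) :
    2 * ((fun e => e * y * e⁻¹) '' (𝐍[D] : Set G)).ncard < Nat.card D := by
  set Y := (fun e => e * y * e⁻¹) '' (𝐍[D] : Set G)
  have h1 : Disjoint Y Y⁻¹ := Set.disjoint_left.2 fun _ ⟨a, _, e⟩ ⟨b, _, e'⟩ =>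
    (h.conj a).nr (b * a⁻¹) (by rw [show a * y * a⁻¹ = _ from e, ← e', ← e]; group)
  have h2 : ∀ x ∈ Y, x ∈ D ∧ x ≠ 1 := by
    rintro _ ⟨a, ha, rfl⟩
    exact ⟨conj_mem_of_mem_normalizer ha hy, (h.conj a).ne⟩
  have h3 := Set.ncard_lt_ncard (s := Y ∪ Y⁻¹) (t := D) ⟨by
    rintro x (hx | hx)
    exacts [(h2 x hx).1, inv_mem_iff.1 (h2 _ hx).1], fun e => by
    rcases e D.one_mem with e | e
    exacts [(h2 _ e).2 rfl, (h2 _ e).2 inv_one]⟩
  rw [Set.ncard_union_eq h1, Set.ncard_inv, ← two_mul] at h3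
  exact h3

theorem syl {D E : Subgroup G} (hy : y ∈ D) (hE : IsPGroup 3 E) (hlt : D < E) (hn : E ≤ 𝐍[D]) :
    IsSyl 3 E 𝐍[D] ∧ ∀ n ∈ 𝐍[D], ∃ e ∈ E, e * y * e⁻¹ = n * y * n⁻¹ := by
  haveI : Fact (Nat.Prime 3) := ⟨Nat.prime_three⟩
  have c1 := mul_card_le hE hlt
  have c2 := h.half hy
  refine ⟨?_, fun n hn' => by_contra fun hne => ?_⟩
  · obtain ⟨F, hF, hle⟩ := exists_isSyl_ge hE hn
    refine hF.of_card_ge hE hn (not_lt.1 fun e => ?_)
    have c3 := mul_card_le hF.pgrp (lt_of_le_of_ne hle fun e' => by rw [e'] at e; omega)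
    have c4 := h.orb hF.pgrp
    have c5 := Set.ncard_le_ncard (Set.image_mono (f := fun e => e * y * e⁻¹) hF.le)
    omega
  · have c3 := h.orb hE
    have c4 := (h.conj n).orb hE
    have c5 := Set.ncard_le_ncard (s := (fun e => e * y * e⁻¹) '' (E : Set G) ∪
        (fun e => e * (n * y * n⁻¹) * e⁻¹) '' (E : Set G))
        (t := (fun e => e * y * e⁻¹) '' (𝐍[D] : Set G)) (by
      rintro _ (⟨a, ha, rfl⟩ | ⟨a, ha, rfl⟩)
      exacts [⟨a, hn ha, rfl⟩, ⟨a * n, mul_mem (hn ha) hn', by group⟩])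
    have c6 : Disjoint ((fun e => e * y * e⁻¹) '' (E : Set G))
        ((fun e => e * (n * y * n⁻¹) * e⁻¹) '' (E : Set G)) :=
      Set.disjoint_left.2 fun _ ⟨a, ha, e⟩ ⟨b, hb, e'⟩ => hne ⟨b⁻¹ * a, mul_mem (inv_mem hb) ha, by
        calc _ = b⁻¹ * (a * y * a⁻¹) * b := by group
          _ = _ := by rw [show a * y * a⁻¹ = _ from e, ← e']; group⟩
    rw [Set.ncard_union_eq c6] at c5
    omega

theorem climb {T : Subgroup G} (hT : IsSyl 3 T ⊤) (hy : y ∈ T) (k : ℕ) : ∀ T' : Subgroup G,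
    IsSyl 3 T' ⊤ → y ∈ T' → Nat.card T ≤ Nat.card (T ⊓ T' : Subgroup G) + k →
    ∃ c ∈ centralizer ({y} : Set G), cj(c, T') = T := by
  haveI : Fact (Nat.Prime 3) := ⟨Nat.prime_three⟩
  induction k using Nat.strong_induction_on with
  | _ k ih =>
  intro T' hT' hy' hk
  by_cases e : T ≤ T'
  · exact ⟨1, one_mem _, by rw [cj_one, hT.eq hT'.pgrp e le_top]⟩
  have l1 : T ⊓ T' < T := lt_of_le_of_ne inf_le_left fun e' => e (e'.ge.trans inf_le_right)
  have l2 : T ⊓ T' < T' := lt_of_le_of_ne inf_le_right fun e' =>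
    e (hT'.eq hT.pgrp (e'.ge.trans inf_le_left) le_top).le
  have m1 := lt_inf_normalizer hT.pgrp l1
  obtain ⟨s1, t1⟩ := h.syl (mem_inf.2 ⟨hy, hy'⟩) (hT.pgrp.to_le inf_le_left) m1 inf_le_right
  obtain ⟨s2, -⟩ := h.syl (mem_inf.2 ⟨hy, hy'⟩) (hT'.pgrp.to_le inf_le_left)
    (lt_inf_normalizer hT'.pgrp l2) inf_le_right
  obtain ⟨n, hn, e1⟩ := s1.exists_cj_eq s2
  obtain ⟨a, ha, e2⟩ := t1 n hn
  have e3 : a⁻¹ * n * y * (a⁻¹ * n)⁻¹ = y := by
    calc _ = a⁻¹ * (n * y * n⁻¹) * a := by group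
      _ = _ := by rw [← e2]; group
  have l3 : T ⊓ 𝐍[T ⊓ T'] ≤ T ⊓ cj(a⁻¹ * n, T') := le_inf inf_le_left (by
    rw [← cj_of_mem (inv_mem ha), ← e1, ← cj_mul]; exact cj_mono _ inf_le_left)
  have c1 := mul_card_le (hT.pgrp.to_le inf_le_left) (m1.trans_le l3)
  have c2 := mul_card_le hT.pgrp l1
  have c3 := Nat.card_pos (α := (T ⊓ T' : Subgroup G))
  obtain ⟨c, hc, e4⟩ := ih (k - 1) (by omega) _ (hT'.cj_of_mem (mem_top (a⁻¹ * n)))
    (e3 ▸ conj_mem_cj _ hy') (by omega)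
  exact ⟨c * (a⁻¹ * n), mul_mem hc (mem_centralizer_singleton_iff.2 (mul_inv_eq_iff_eq_mul.1 e3)),
    by rw [cj_mul, e4]⟩

theorem trans {P : Subgroup G} (hP : IsSyl 3 P ⊤) (hy : y ∈ P) {g : G} (hg : g * y * g⁻¹ ∈ P) :
    ∃ n ∈ 𝐍[P], n * y * n⁻¹ = g * y * g⁻¹ := by
  obtain ⟨c, hc, e⟩ := (h.conj g).climb hP hg _ _ (hP.cj_of_mem (mem_top g)) (conj_mem_cj g hy)
    (Nat.le_add_left _ _)
  refine ⟨c * g, cj_eq_iff.1 (by rw [cj_mul, e]), ?_⟩
  calc _ = c * (g * y * g⁻¹) * c⁻¹ := by group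
    _ = _ := by rw [mem_centralizer_singleton_iff.1 hc, mul_inv_cancel_right]

theorem coset {P : Subgroup G} (hP : IsPGroup 3 P) (hy : y ∈ P) :
    Nat.card P ≤ Nat.card (_root_.commutator P) * 9 ∧ (Nat.card (_root_.commutator P) * 9 ≤ Nat.card P →
      ∀ w ∈ _root_.commutator P, ∃ e : G, e * y * e⁻¹ = w * y) := by
  have c1 := h.orb hP
  have s1 : (fun e => e * y * e⁻¹) '' (P : Set G) ⊆
      (fun w : P => (w : G) * y) '' (_root_.commutator P : Set P) := by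
    rintro _ ⟨a, ha, rfl⟩
    exact ⟨_, commutator_mem_commutator (mem_top (⟨a, ha⟩ : P)) (mem_top ⟨y, hy⟩),
      by simp [commutatorElement_def]⟩
  have c2 := Set.ncard_image_le (f := fun w : P => (w : G) * y) (s := (_root_.commutator P : Set P))
  have c3 := Set.ncard_le_ncard s1
  change _ ≤ Nat.card (_root_.commutator P) at c2
  refine ⟨by omega, fun c4 w hw => ?_⟩
  obtain ⟨e, -, he⟩ := (Set.eq_of_subset_of_ncard_le s1 (by omega)).ge ⟨w, hw, rfl⟩
  exact ⟨e, he⟩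

theorem false (hG : _root_.commutator G = ⊤) {P : Subgroup G} (hP : IsSyl 3 P ⊤) (hy : y ∈ P)
    (h9 : 9 < Nat.card P) : False := by
  classical
  haveI : Fact (Nat.Prime 3) := ⟨Nat.prime_three⟩
  have hc : ¬ IsCyclic (P ⧸ _root_.commutator P) := fun e => by
    haveI := Grp.MaxClass.isCyclic_of_isCyclic_abelianization hP.pgrp e
    letI := IsCyclic.commGroup (α := P)
    have := h.nine P hP.pgrp fun a ha => mem_centralizer_singleton_iff.2
      (congrArg Subtype.val (mul_comm (⟨a, ha⟩ : P) ⟨y, hy⟩))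
    omega
  have c1 := card_eq_card_quotient_mul_card_subgroup (_root_.commutator P)
  have c2 := Nat.card_pos (α := _root_.commutator P)
  have c9 : Nat.card (Abelianization P) = 3 ^ 2 := by
    obtain ⟨k, hk⟩ := (hP.pgrp.to_quotient (_root_.commutator P)).exists_card_eq
    have c3 := (h.coset hP.pgrp hy).1
    rw [c1, mul_comm] at c3
    have c4 := Nat.le_of_mul_le_mul_left c3 c2
    rw [hk] at c4
    have : k ≤ 2 := (Nat.pow_le_pow_iff_right (by norm_num)).1 (c4.trans_eq (by norm_num : 9 = 3 ^ 2))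
    interval_cases k
    · exact absurd (isCyclic_of_card_dvd_prime (p := 3) (hk ▸ one_dvd _)) hc
    · exact absurd (isCyclic_of_prime_card (p := 3) hk) hc
    · exact hk
  have e3 : ∀ a : Abelianization P, a ^ 3 = 1 := fun a => by
    rcases (Nat.dvd_prime_pow Nat.prime_three).1 (c9 ▸ orderOf_dvd_natCard a) with ⟨k, hk, e⟩
    interval_cases k
    · rw [orderOf_eq_one_iff.1 e, one_pow]
    · rw [← pow_one 3, ← e, pow_orderOf_eq_one]
    · exact absurd (isCyclic_of_orderOf_eq_card a (e.trans c9.symm)) hc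
  obtain ⟨ε⟩ : Nonempty (Multiplicative (ZMod 3 × ZMod 3) ≃* Abelianization P) := by
    haveI : Nontrivial (Abelianization P) := Finite.one_lt_card_iff_nontrivial.1 (by omega)
    obtain ⟨a, ha⟩ := exists_ne (1 : Abelianization P)
    obtain ⟨b, hb⟩ : ∃ b, b ∉ zpowers a := not_forall.1 fun e => hc ⟨a, e⟩
    obtain ⟨ε, -⟩ := Fus.AC.exists_equiv₂_of_gen (e3 a) (e3 b) (mul_comm a b)
      (Fus.AC.gen_of_card_sq c9 (mul_comm a b) ha hb) c9
    exact ⟨ε⟩
  let θ : P →* Multiplicative (ZMod 3 × ZMod 3) := ε.symm.toMonoidHom.comp Abelianization.of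
  have hθ : ∀ a b : P, θ a = θ b ↔ a * b⁻¹ ∈ _root_.commutator P := fun a b => by
    rw [← mul_inv_eq_one, ← map_inv, ← map_mul, ← Abelianization.ker_of]
    exact map_eq_one_iff _ ε.symm.injective
  have F1 : ∀ a b : P, NR (a : G) → θ b = θ a → ∃ e : G, e * a * e⁻¹ = b := fun a b ha e => by
    simpa using (ha.coset hP.pgrp a.2).2 (by rw [c1, mul_comm]; exact Nat.mul_le_mul_right _ c9.ge) _
      ((hθ _ _).1 e)
  let T : ZMod 3 × ZMod 3 → Bool := fun v =>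
    decide (∃ (g : G) (hg : g * y * g⁻¹ ∈ P), θ ⟨_, hg⟩ = Multiplicative.ofAdd v)
  obtain ⟨α, β, hl⟩ := exists_lin T (decide_eq_false fun ⟨g, hg, e⟩ => by
      obtain ⟨k, hk⟩ := F1 ⟨_, hg⟩ 1 (h.conj g) ((map_one θ).trans e.symm)
      exact ((h.conj g).conj k).ne hk)
    (fun v hv => decide_eq_false fun ⟨g, hg, e⟩ => by
      obtain ⟨g', hg', e'⟩ := of_decide_eq_true hv
      obtain ⟨k, hk⟩ := F1 ⟨_, hg⟩ ⟨_, hg'⟩⁻¹ (h.conj g) (by rw [map_inv, e, e']; rfl)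
      exact (h.conj g').nr (k * g * g'⁻¹) ((show _ = k * (g * y * g⁻¹) * k⁻¹ by group).trans hk))
    fun s u v hs hu hv hw => by
      obtain ⟨g₁, h₁, e₁⟩ := of_decide_eq_true hs
      obtain ⟨g₂, h₂, e₂⟩ := of_decide_eq_true hu
      obtain ⟨g₃, h₃, e₃⟩ := of_decide_eq_true hv
      obtain ⟨g₄, h₄, e₄⟩ := of_decide_eq_true hw
      obtain ⟨n, hn, e⟩ := (h.conj g₄).trans hP h₄ (g := g₁ * g₄⁻¹) (by convert h₁ using 1; group)
      let κ := P.normalizerMonoidHom ⟨n, hn⟩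
      have k : ∀ g (hg : g * y * g⁻¹ ∈ P), T (θ (κ ⟨_, hg⟩)).toAdd := fun g hg =>
        decide_eq_true ⟨n * g, by convert conj_mem_of_mem_normalizer hn hg using 1; group,
          congrArg θ (Subtype.ext (by change _ = n * _ * n⁻¹; group))⟩
      refine ⟨_, _, k g₂ h₂, k g₃ h₃, ?_⟩
      rw [← toAdd_mul, ← map_mul, ← map_mul, ← toAdd_ofAdd s, ← e₁,
        show (⟨_, h₁⟩ : P) = κ ⟨_, h₄⟩ from Subtype.ext (e.trans (by group)).symm, (hθ _ _).2]
      rw [← map_inv, ← map_mul]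
      refine characteristic_iff_le_comap.1 inferInstance κ ((hθ _ _).1 ?_)
      rw [map_mul, e₂, e₃, e₄, ofAdd_add]
  let ψ : P →* Multiplicative (ZMod 3) := (AddMonoidHom.toMultiplicative
    (AddMonoidHom.mk' (fun v : ZMod 3 × ZMod 3 => α * v.1 + β * v.2) fun u v => by simp; ring)).comp θ
  have key := Transfer.transfer_eq_pow_of_forall ψ y (Multiplicative.ofAdd 1) fun g k hk => by
    by_cases h3 : 3 ∣ k
    · obtain ⟨k, rfl⟩ := h3
      rw [pow_mul (Multiplicative.ofAdd _), show (Multiplicative.ofAdd (1 : ZMod 3)) ^ 3 = 1 by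
        rw [← ofAdd_nsmul, nsmul_one, ZMod.natCast_self, ofAdd_zero], one_pow, ← map_one ψ]
      exact congrArg ψ (Subtype.ext (by simp [pow_mul, h.cube]))
    have e : g⁻¹ * y ^ k * g = (g⁻¹ * y * g⁻¹⁻¹) ^ k := by rw [conj_pow, inv_inv]
    have m : g⁻¹ * y * g⁻¹⁻¹ ∈ P := mem_of_pow_mem_of_coprime (e ▸ hk) (by
      rw [orderOf_conj', orderOf_eq_prime h.cube h.ne]
      exact (Nat.Prime.coprime_iff_not_dvd Nat.prime_three).2 h3)
    rw [show (⟨_, hk⟩ : P) = ⟨_, m⟩ ^ k from Subtype.ext e, map_pow]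
    exact congrArg (fun a : ZMod 3 => Multiplicative.ofAdd a ^ k) (hl _ (decide_eq_true ⟨_, m, rfl⟩))
  rw [show MonoidHom.transfer ψ y = 1 from Abelianization.commutator_subset_ker _ (hG ▸ mem_top y),
    eq_comm, ← orderOf_dvd_iff_pow_eq_one, orderOf_ofAdd_eq_addOrderOf, ZMod.addOrderOf_one] at key
  exact hP.not_dvd_relIndex (by rwa [relIndex_top_right])

end NR

end Cfsg.Agent.Fxy
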